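import Cfsg.Agent.RankTwoP.Huppert
import Cfsg.Agent.Eq.Def_CaseTheorems

/-!
A two-generator 2-group is metacyclic as soon as its quotient by `Φ(G')[G', G]` is (Blackburn),
and a 2-group of sectional rank at most two is metacyclic.
-/

set_option autoImplicit false

open Subgroup
open scoped commutatorElement

namespace CfsgLib.TwoGroup.MetacyclicSectional

universe u

/-- The subgroup generated by `[G', G]` and the squares of `G'`. -/
def radical (G : Type*) [Group G] : Subgroup G :=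
  ⁅commutator G, (⊤ : Subgroup G)⁆ ⊔ Subgroup.closure {x : G | ∃ c ∈ commutator G, x = c ^ 2}

section

variable {G : Type u} [Group G]

theorem map_commutator_top {H : Type*} [Group H] (f : G →* H) (hf : Function.Surjective f) :
    (commutator G).map f = commutator H := by
  rw [commutator_def, commutator_def, map_commutator, map_top_of_surjective f hf]

theorem map_radical {H : Type*} [Group H] (f : G →* H) (hf : Function.Surjective f) :
    (radical G).map f = radical H := by
  rw [radical, radical, Subgroup.map_sup, map_commutator, map_commutator_top f hf,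
    map_top_of_surjective f hf, MonoidHom.map_closure]
  congr 2
  ext y
  simp only [Set.mem_image, Set.mem_setOf_eq]
  constructor
  · rintro ⟨x, ⟨c, hc, rfl⟩, rfl⟩
    exact ⟨f c, map_commutator_top f hf ▸ mem_map_of_mem f hc, map_pow f c 2⟩
  · rintro ⟨d, hd, rfl⟩
    rw [← map_commutator_top f hf] at hd
    obtain ⟨c, hc, rfl⟩ := hd
    exact ⟨c ^ 2, ⟨c, hc, rfl⟩, map_pow f c 2⟩

theorem radical_le {N : Subgroup G} (h1 : ∀ c ∈ commutator G, ∀ g : G, ⁅c, g⁆ ∈ N)
    (h2 : ∀ c ∈ commutator G, c ^ 2 ∈ N) : radical G ≤ N :=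
  sup_le (commutator_le.mpr fun c hc g _ => h1 c hc g)
    (by rw [closure_le]; rintro x ⟨c, hc, rfl⟩; exact h2 c hc)

instance radical_normal : (radical G).Normal := by
  refine ⟨fun n hn g => ?_⟩
  have h := map_radical (MulAut.conj g).toMonoidHom (MulAut.conj g).surjective
  rw [← h]
  exact mem_map_of_mem _ hn

variable [Finite G]

/-- Blackburn's lifting step through a central subgroup of order two. -/
theorem metacyclic_of_quotient (hG : IsPGroup 2 G) {Z : Subgroup G} [Z.Normal]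
    (hZ : Nat.card Z = 2) (hZR : Z ≤ radical G) (hQ : Cfsg.IsMetacyclic (G ⧸ Z)) :
    Cfsg.IsMetacyclic G := by
  haveI : Fact (Nat.Prime 2) := ⟨Nat.prime_two⟩
  obtain ⟨B₀, hB₀, hB₀c, hQc⟩ := hQ
  set π := QuotientGroup.mk' Z with hπ
  set B := B₀.comap π with hB
  set q := (QuotientGroup.mk' B₀).comp π with hq
  have hqs : Function.Surjective q :=
    (QuotientGroup.mk'_surjective _).comp (QuotientGroup.mk'_surjective _)
  have hker : q.ker = B := by rw [hq, ← MonoidHom.comap_ker, QuotientGroup.ker_mk']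
  have hBn : B.Normal := hB ▸ inferInstance
  have hQB : IsCyclic (G ⧸ B) := by
    have hinj : Function.Injective (QuotientGroup.lift B q hker.ge) := by
      rw [← MonoidHom.ker_eq_bot_iff, QuotientGroup.ker_lift, hker, QuotientGroup.map_mk'_self]
    exact isCyclic_of_injective _ hinj
  have hZc : Z ≤ center G := CfsgLib.PGroup.le_center_of_card_eq hG Z hZ
  obtain ⟨⟨x₀, hx₀B⟩, hx₀⟩ := IsCyclic.exists_generator (α := B₀)
  obtain ⟨x, rfl⟩ := QuotientGroup.mk'_surjective Z x₀
  have hBmem : ∀ y ∈ B, ∃ (i : ℤ) (v : G), v ∈ Z ∧ y = x ^ i * v := by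
    intro y hy
    obtain ⟨i, hi⟩ := mem_zpowers_iff.mp (hx₀ ⟨π y, hy⟩)
    have hi' : π x ^ i = π y := congrArg Subtype.val hi
    rw [← map_zpow, QuotientGroup.mk'_eq_mk'] at hi'
    obtain ⟨v, hv, hv'⟩ := hi'
    exact ⟨i, v, hv, hv'.symm⟩
  by_cases hZx : Z ≤ zpowers x
  · have hBeq : B = zpowers x := le_antisymm (fun y hy => by
      obtain ⟨i, v, hv, rfl⟩ := hBmem y hy
      exact mul_mem (zpow_mem (mem_zpowers x) i) (hZx hv)) (zpowers_le.mpr hx₀B)
    refine ⟨B, hBn, ?_, hQB⟩
    rw [hBeq]; infer_instance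
  exfalso
  apply hZx
  -- `G = B ⟨b⟩`
  obtain ⟨b', hb'⟩ := hQB.exists_generator
  obtain ⟨b, rfl⟩ := QuotientGroup.mk_surjective b'
  have hgen : ∀ g : G, ∃ (n : ℤ) (i : ℤ) (v : G), v ∈ Z ∧ g = b ^ n * (x ^ i * v) := by
    intro g
    obtain ⟨n, hn⟩ := mem_zpowers_iff.mp (hb' (g : G ⧸ B))
    rw [← QuotientGroup.mk_zpow, QuotientGroup.eq] at hn
    obtain ⟨i, v, hv, hiv⟩ := hBmem _ hn
    exact ⟨n, i, v, hv, by rw [← hiv, mul_inv_cancel_left]⟩
  have hcomm : ∀ v ∈ Z, ∀ g : G, Commute v g := fun v hv g =>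
    (Subgroup.mem_center_iff.mp (hZc hv) g).symm
  set c := ⁅b, x⁆ with hc
  have hbx : b * x * b⁻¹ = c * x := by rw [hc, commutatorElement_def]; group
  have hcB : c ∈ B := by
    rw [hc, commutatorElement_def]; exact mul_mem (hBn.conj_mem x hx₀B b) (inv_mem hx₀B)
  obtain ⟨i₀, v₀, hv₀, hcv⟩ := hBmem c hcB
  have hcx : Commute c x := by
    rw [hcv]; exact ((Commute.refl x).zpow_left i₀).mul_left (hcomm v₀ hv₀ x)
  have hbc : b * c * b⁻¹ = c ^ (i₀ + 1) := by
    calc b * c * b⁻¹ = b * (x ^ i₀ * v₀) * b⁻¹ := by rw [hcv]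
      _ = (b * x ^ i₀ * b⁻¹) * (b * v₀ * b⁻¹) := conj_mul.symm
      _ = (c * x) ^ i₀ * v₀ := by
          rw [← conj_zpow, hbx, ← (hcomm v₀ hv₀ b).eq, mul_inv_cancel_right]
      _ = c ^ i₀ * c := by rw [hcx.mul_zpow, hcv, mul_assoc]
      _ = c ^ (i₀ + 1) := (zpow_add_one c i₀).symm
  set K := zpowers c with hK
  have hKn : K.Normal := by
    rw [← normalizer_eq_top_iff, eq_top_iff]
    intro g _
    have hb : b ∈ normalizer (K : Set G) := by
      rw [mem_normalizer_iff_map_conj_eq, hK, MonoidHom.map_zpowers]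
      apply eq_of_le_of_card_ge
      · rw [zpowers_le]
        show b * c * b⁻¹ ∈ zpowers c
        rw [hbc]; exact zpow_mem (mem_zpowers c) _
      · rw [Nat.card_zpowers, Nat.card_zpowers]; exact (orderOf_injective (MulAut.conj b).toMonoidHom (MulAut.conj b).injective c).ge
    have hfix : ∀ y : G, Commute c y → y ∈ normalizer (K : Set G) := fun y hy =>
      centralizer_le_normalizer (K : Set G) (mem_centralizer_iff.mpr fun k hk => by
        obtain ⟨j, rfl⟩ := mem_zpowers_iff.mp hk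
        exact (hy.zpow_left j).eq)
    obtain ⟨n, i, v, hv, rfl⟩ := hgen g
    exact mul_mem (zpow_mem hb n) (mul_mem (zpow_mem (hfix x hcx) i) (hfix v (hcomm v hv c).symm))
  have hGK : commutator G ≤ K := by
    refine (Subgroup.Normal.quotient_commutative_iff_commutator_le).mp ⟨⟨fun p q => ?_⟩⟩
    obtain ⟨g, rfl⟩ := QuotientGroup.mk'_surjective K p
    obtain ⟨h, rfl⟩ := QuotientGroup.mk'_surjective K q
    obtain ⟨n, i, v, hv, rfl⟩ := hgen g
    obtain ⟨n', i', v', hv', rfl⟩ := hgen h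
    set f := QuotientGroup.mk' K with hf
    have h1 : Commute (f b) (f x) := by
      rw [← commutatorElement_eq_one_iff_commute, ← map_commutatorElement, ← hc]
      exact (QuotientGroup.eq_one_iff c).mpr (mem_zpowers c)
    have h2 : ∀ w ∈ Z, ∀ y : G, Commute (f w) (f y) := fun w hw y => (hcomm w hw y).map f
    simp only [map_mul, map_zpow]
    exact ((((Commute.refl (f b)).zpow_zpow n n').mul_right
        ((h1.zpow_zpow n i').mul_right ((h2 v' hv' b).symm.zpow_left n))).mul_left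
      (((h1.symm.zpow_zpow i n').mul_right
          (((Commute.refl (f x)).zpow_zpow i i').mul_right ((h2 v' hv' x).symm.zpow_left i))).mul_left
        (((h2 v hv b).zpow_right n').mul_right
          (((h2 v hv x).zpow_right i').mul_right (h2 v hv v'))))).eq
  have hRc : radical G ≤ zpowers (c ^ 2) := by
    refine radical_le (fun d hd g => ?_) (fun d hd => ?_)
    · obtain ⟨j, rfl⟩ := mem_zpowers_iff.mp (hGK hd)
      obtain ⟨t, ht⟩ := mem_zpowers_iff.mp (hKn.conj_mem c (mem_zpowers c) g)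
      by_cases hc1 : c = 1
      · simp [hc1]
      have ht' : Odd t := by
        by_contra hte
        obtain ⟨s, hs⟩ := Int.not_odd_iff_even.mp hte
        obtain ⟨e, he⟩ := IsPGroup.iff_orderOf.mp hG c
        have he0 : e ≠ 0 := fun h => hc1 (orderOf_eq_one_iff.mp (by rw [he, h, pow_zero]))
        have h1 : (c ^ t) ^ (2 ^ (e - 1)) = 1 := by
          rw [← zpow_natCast, ← zpow_mul, ← orderOf_dvd_iff_zpow_eq_one, he]
          refine ⟨s, ?_⟩
          rw [hs, show (2 : ℕ) ^ e = 2 ^ (e - 1) * 2 by rw [← pow_succ]; congr 1; omega]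
          push_cast; ring
        rw [ht, conj_pow, mul_inv_eq_one, mul_eq_left] at h1
        have := (Nat.pow_dvd_pow_iff_le_right (by norm_num : 1 < 2)).mp
          (he ▸ orderOf_dvd_of_pow_eq_one h1)
        omega
      obtain ⟨s, hs⟩ := ht'
      refine mem_zpowers_iff.mpr ⟨-(s * j), ?_⟩
      rw [commutatorElement_def,
        show c ^ j * g * (c ^ j)⁻¹ * g⁻¹ = c ^ j * (g * (c ^ j)⁻¹ * g⁻¹) by group,
        ← conj_inv, ← conj_zpow, ← ht, ← zpow_mul, ← zpow_neg, ← zpow_add, ← zpow_natCast,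
        ← zpow_mul, hs]
      congr 1; push_cast; ring
    · obtain ⟨j, rfl⟩ := mem_zpowers_iff.mp (hGK hd)
      refine mem_zpowers_iff.mpr ⟨j, ?_⟩
      rw [← zpow_natCast, ← zpow_natCast, ← zpow_mul, ← zpow_mul, mul_comm]
  intro w hw
  obtain ⟨j, hj⟩ := mem_zpowers_iff.mp (hRc (hZR hw))
  have hv2 : v₀ ^ 2 = 1 :=
    orderOf_dvd_iff_pow_eq_one.mp (hZ ▸ Subgroup.orderOf_dvd_natCard Z hv₀)
  rw [← hj, hcv, ((hcomm v₀ hv₀ (x ^ i₀)).symm).mul_pow, hv2, mul_one]
  exact zpow_mem (pow_mem (zpow_mem (mem_zpowers x) i₀) 2) j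

end

/-- Blackburn: `G` is metacyclic if `G / Φ(G')[G', G]` is. -/
theorem metacyclic_of_radical {G : Type u} [Group G] [Finite G] (hG : IsPGroup 2 G)
    (h : Cfsg.IsMetacyclic (G ⧸ radical G)) : Cfsg.IsMetacyclic G := by
  haveI : Fact (Nat.Prime 2) := ⟨Nat.prime_two⟩
  suffices key : ∀ (m : ℕ) (H : Type u) [Group H] [Finite H], Nat.card H = m → IsPGroup 2 H →
      (∃ (A : Subgroup H) (_ : A.Normal) (a : H), IsCyclic (H ⧸ A) ∧ A = zpowers a ⊔ radical H) →
      Cfsg.IsMetacyclic H by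
    obtain ⟨A₀, hA₀, hA₀c, hQc⟩ := h
    obtain ⟨⟨a₀, haA⟩, ha₀⟩ := IsCyclic.exists_generator (α := A₀)
    obtain ⟨a, rfl⟩ := QuotientGroup.mk'_surjective (radical G) a₀
    have hA₀eq : A₀ = zpowers (QuotientGroup.mk' (radical G) a) := le_antisymm (fun y hy => by
      obtain ⟨i, hi⟩ := mem_zpowers_iff.mp (ha₀ ⟨y, hy⟩)
      exact mem_zpowers_iff.mpr ⟨i, by simpa using congrArg Subtype.val hi⟩) (zpowers_le.mpr haA)
    refine key _ G rfl hG ⟨A₀.comap (QuotientGroup.mk' (radical G)), inferInstance, a, ?_, ?_⟩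
    · set q := (QuotientGroup.mk' A₀).comp (QuotientGroup.mk' (radical G)) with hq
      have hker : q.ker = A₀.comap (QuotientGroup.mk' (radical G)) := by
        rw [hq, ← MonoidHom.comap_ker, QuotientGroup.ker_mk']
      have hinj : Function.Injective (QuotientGroup.lift _ q hker.ge) := by
        rw [← MonoidHom.ker_eq_bot_iff, QuotientGroup.ker_lift, hker, QuotientGroup.map_mk'_self]
      exact isCyclic_of_injective _ hinj
    · rw [hA₀eq, ← MonoidHom.map_zpowers, comap_map_eq, QuotientGroup.ker_mk']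
  intro m
  induction m using Nat.strong_induction_on with
  | _ m ih =>
  intro H _ _ hm hH hA
  obtain ⟨A, hAn, a, hAc, hAeq⟩ := hA
  by_cases hR : radical H = ⊥
  · rw [hR, sup_bot_eq] at hAeq
    refine ⟨A, hAn, ?_, hAc⟩
    rw [hAeq]; infer_instance
  haveI : Nontrivial (radical H) := (Subgroup.nontrivial_iff_ne_bot _).mpr hR
  have hne : radical H ⊓ center H ≠ ⊥ := CfsgLib.PGroup.inf_center_ne_bot hH _ hR
  obtain ⟨k, hk⟩ := IsPGroup.iff_card.mp (hH.to_subgroup (radical H ⊓ center H))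
  have hk0 : k ≠ 0 := fun h0 => hne (card_eq_one.mp (by rw [hk, h0, pow_zero]))
  obtain ⟨z, hz⟩ := exists_prime_orderOf_dvd_card' 2 (G := ↥(radical H ⊓ center H))
    (hk ▸ dvd_pow_self 2 hk0)
  set Z := zpowers (z : H) with hZdef
  have hZc : Z ≤ center H := zpowers_le.mpr z.2.2
  haveI : Z.Normal := ⟨fun v hv g => by
    rw [Subgroup.mem_center_iff.mp (hZc hv) g, mul_inv_cancel_right]; exact hv⟩
  have hZ : Nat.card Z = 2 := by rw [hZdef, Nat.card_zpowers, Subgroup.orderOf_coe, hz]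
  set π := QuotientGroup.mk' Z
  have hπ : Function.Surjective π := QuotientGroup.mk'_surjective _
  have hlt : Nat.card (H ⧸ Z) < m := by
    rw [← hm, ← Z.card_mul_index, Subgroup.index_eq_card]
    exact lt_mul_of_one_lt_left Nat.card_pos (by rw [hZ]; norm_num)
  refine metacyclic_of_quotient hH hZ (zpowers_le.mpr z.2.1)
    (ih _ hlt (H ⧸ Z) rfl (hH.to_quotient Z) ⟨A.map π, hAn.map π hπ, π a, ?_, ?_⟩)
  · haveI := hAn.map π hπ
    exact isCyclic_of_surjective (QuotientGroup.map A (A.map π) π (le_comap_map π A))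
      (QuotientGroup.map_surjective_of_surjective A (A.map π) π
        ((QuotientGroup.mk'_surjective _).comp hπ) _)
  · rw [hAeq, Subgroup.map_sup, MonoidHom.map_zpowers, map_radical π hπ]

/-- A two-generator 2-group with central commutators of order at most two and no elementary
abelian subgroup of order 8 is metacyclic. -/
theorem metacyclic_of_small {G : Type u} [Group G] [Finite G] (hG : IsPGroup 2 G)
    (hidx : (frattini G).index ≤ 4)
    (hcen : ∀ g h : G, ⁅g, h⁆ ∈ center G ∧ ⁅g, h⁆ ^ 2 = 1)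
    (hE : ∀ x y z : G, x ^ 2 = 1 → y ^ 2 = 1 → z ^ 2 = 1 → Commute x y → Commute x z →
      Commute y z → x ≠ 1 → y ≠ 1 → z ≠ 1 → x ≠ y → x ≠ z → y ≠ z → x * y = z) :
    Cfsg.IsMetacyclic G := by
  haveI : Fact (Nat.Prime 2) := ⟨Nat.prime_two⟩
  by_cases hcyc : IsCyclic G
  · exact ⟨⊤, inferInstance, inferInstance,
      @isCyclic_of_subsingleton _ _ QuotientGroup.subsingleton_quotient_top⟩
  set Φ := frattini G with hΦdef
  obtain ⟨r, hr⟩ := hG.index Φ
  have hr2 : r = 2 := by
    rcases Nat.lt_or_ge r 2 with h | h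
    · exact absurd (CfsgLib.PGroup.isCyclic_of_frattini_index (p := 2)
        (by rw [← hΦdef, hr]; simpa using pow_dvd_pow 2 (show r ≤ 1 by omega))) hcyc
    · have : 2 ^ r ≤ 2 ^ 2 := by rw [← hr]; exact hidx
      have := (Nat.pow_le_pow_iff_right (by norm_num : 1 < 2)).mp this
      omega
  by_contra hnm
  -- no element outside the Frattini subgroup generates a normal subgroup
  have hnn : ∀ y, y ∉ Φ → ∃ g h : G, ⁅g, h⁆ ∉ zpowers y := by
    intro y hy
    by_contra hall
    push Not at hall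
    refine hnm (CfsgLib.RankTwoP.metacyclic_of_gen hG hidx hy ⟨fun v hv g => ?_⟩)
    rw [show g * v * g⁻¹ = ⁅g, v⁆ * v by rw [commutatorElement_def]; group]
    exact mul_mem (hall g v) hv
  have hΦtop : Φ ≠ ⊤ := fun h => by rw [h, index_top, hr2] at hr; norm_num at hr
  obtain ⟨a, ⟨ha, hmin⟩⟩ : ∃ a, a ∉ Φ ∧ ∀ y, y ∉ Φ → orderOf a ≤ orderOf y := by
    obtain ⟨w, hw⟩ : ∃ w, w ∉ Φ := by
      by_contra h
      push Not at h
      exact hΦtop (eq_top_iff.mpr fun x _ => h x)
    obtain ⟨a, ha, hmin⟩ := (Set.toFinite {y : G | y ∉ Φ}).toFinset.exists_min_image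
      (fun y => orderOf y) ⟨w, by simpa using hw⟩
    exact ⟨a, by simpa using ha, fun y hy => hmin y (by simpa using hy)⟩
  obtain ⟨b, hb⟩ : ∃ b, b ∉ zpowers a ⊔ Φ := by
    by_contra h
    push Not at h
    have htop : Subgroup.closure ({a} : Set G) = ⊤ := by
      apply frattini_nongenerating
      rw [← zpowers_eq_closure, eq_top_iff]
      exact fun x _ => h x
    exact hcyc ⟨a, fun y => mem_zpowers_iff.mp (by rw [zpowers_eq_closure, htop]; exact mem_top y)⟩
  have hbΦ : b ∉ Φ := fun h => hb (mem_sup_right h)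
  have hgen : Subgroup.closure ({a, b} : Set G) = ⊤ := by
    apply frattini_nongenerating
    set K := Subgroup.closure ({a, b} : Set G) ⊔ Φ with hK
    have h1 : zpowers a ⊔ Φ ≤ K := sup_le_sup_right (zpowers_le.mpr (subset_closure (by simp))) _
    have hlt : zpowers a ⊔ Φ < K :=
      lt_of_le_of_ne h1 fun he => hb (he ▸ mem_sup_left (subset_closure (by simp)))
    have hlt' : Φ < zpowers a ⊔ Φ :=
      lt_of_le_of_ne le_sup_right fun he => ha (he ▸ mem_sup_left (mem_zpowers a))
    obtain ⟨j, hj⟩ := hG.index K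
    obtain ⟨i, hi⟩ := hG.index (zpowers a ⊔ Φ)
    have h2 := index_strictAnti hlt
    have h3 := index_strictAnti hlt'
    rw [hj, hi] at h2; rw [hi, hr] at h3
    have h4 := (Nat.pow_lt_pow_iff_right (by norm_num : 1 < 2)).mp h2
    have h5 := (Nat.pow_lt_pow_iff_right (by norm_num : 1 < 2)).mp h3
    rw [← index_eq_one, hj, show j = 0 by omega, pow_zero]
  set z := ⁅a, b⁆ with hz
  have hzc : ∀ g, Commute z g := fun g => (Subgroup.mem_center_iff.mp (hcen a b).1 g).symm
  have hz2 : z ^ 2 = 1 := (hcen a b).2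
  -- every commutator is a power of `z`
  have hcz : ∀ g h : G, ⁅g, h⁆ ∈ zpowers z := by
    haveI : (zpowers z).Normal := ⟨fun v hv g => by
      obtain ⟨i, rfl⟩ := mem_zpowers_iff.mp hv
      rw [← ((hzc g).zpow_left i).eq, mul_inv_cancel_right]; exact hv⟩
    set f := QuotientGroup.mk' (zpowers z)
    have hab : Commute (f a) (f b) := by
      rw [← commutatorElement_eq_one_iff_commute, ← map_commutatorElement, ← hz]
      exact (QuotientGroup.eq_one_iff z).mpr (mem_zpowers z)
    have hall : ∀ g h : G, Commute (f g) (f h) := by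
      have h1 : ∀ g : G, Commute (f a) (f g) ∧ Commute (f b) (f g) := by
        have : Subgroup.closure ({a, b} : Set G) ≤
            (centralizer ({f a, f b} : Set (G ⧸ zpowers z))).comap f := by
          rw [closure_le]
          rintro y (rfl | rfl) w (rfl | rfl)
          exacts [rfl, hab.eq.symm, hab.eq, rfl]
        intro g
        have hg := this (hgen ▸ mem_top g)
        exact ⟨hg _ (by simp), hg _ (by simp)⟩
      intro g h
      have : Subgroup.closure ({a, b} : Set G) ≤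
          (centralizer ({f h} : Set (G ⧸ zpowers z))).comap f := by
        rw [closure_le]
        rintro y (rfl | rfl) w (rfl : w = f h)
        exacts [(h1 h).1.eq.symm, (h1 h).2.eq.symm]
      exact (this (hgen ▸ mem_top g) _ rfl).symm
    intro g h
    rw [← QuotientGroup.eq_one_iff, ← QuotientGroup.mk'_apply, map_commutatorElement,
      commutatorElement_eq_one_iff_commute]
    exact hall g h
  have hnz : ∀ y, y ∉ Φ → z ∉ zpowers y := fun y hy hmem => by
    obtain ⟨g, h, hgh⟩ := hnn y hy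
    exact hgh ((zpowers_le.mpr hmem) (hcz g h))
  have hz1 : z ≠ 1 := fun h => hnz a ha (h ▸ one_mem _)
  have habΦ : a * b ∉ Φ := fun h => hb (by
    have : b = a⁻¹ * (a * b) := by group
    rw [this]
    exact mul_mem (mem_sup_left (inv_mem (mem_zpowers a))) (mem_sup_right h))
  have hsq : ∀ g h : G, Commute (g ^ 2) h := fun g h => by
    rw [← commutatorElement_eq_one_iff_commute,
      CfsgLib.PGroup.commutatorElement_pow_left (Subgroup.mem_center_iff.mp (hcen g h).1 g).symm,
      (hcen g h).2]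
  have hmul : ∀ (u v : G) (n : ℕ), (u * v) ^ n * ⁅u, v⁆ ^ n.choose 2 = u ^ n * v ^ n := fun u v n =>
    CfsgLib.PGroup.mul_pow_mul_commutatorElement (Subgroup.mem_center_iff.mp (hcen u v).1 u).symm
      (Subgroup.mem_center_iff.mp (hcen u v).1 v).symm n
  obtain ⟨m, hm⟩ := IsPGroup.iff_orderOf.mp hG a
  obtain ⟨n, hn⟩ := IsPGroup.iff_orderOf.mp hG b
  have hm0 : m ≠ 0 := fun h => ha (by
    rw [orderOf_eq_one_iff.mp (show orderOf a = 1 by rw [hm, h, pow_zero])]; exact one_mem _)
  have hmn : m ≤ n := (Nat.pow_le_pow_iff_right (by norm_num : 1 < 2)).mp (hm ▸ hn ▸ hmin b hbΦ)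
  obtain ⟨m, rfl⟩ : ∃ k, m = k + 1 := ⟨m - 1, by omega⟩
  obtain ⟨n, rfl⟩ : ∃ k, n = k + 1 := ⟨n - 1, by omega⟩
  rcases Nat.eq_zero_or_pos n with rfl | hnpos
  · -- two involutions: their product squares to `z`
    obtain rfl : m = 0 := by omega
    apply hnz _ habΦ
    have ha2 : a⁻¹ = a := inv_eq_of_mul_eq_one_right (by
      rw [← pow_two]; exact orderOf_dvd_iff_pow_eq_one.mp (by simp [hm]))
    have hb2 : b⁻¹ = b := inv_eq_of_mul_eq_one_right (by
      rw [← pow_two]; exact orderOf_dvd_iff_pow_eq_one.mp (by simp [hn]))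
    refine mem_zpowers_iff.mpr ⟨2, ?_⟩
    rw [zpow_two, hz, commutatorElement_def, ha2, hb2, mul_assoc (a * b)]
  set a₀ := a ^ 2 ^ m with ha₀
  set b₀ := b ^ 2 ^ n with hb₀
  have ha₀2 : a₀ ^ 2 = 1 := by rw [ha₀, ← pow_mul, ← pow_succ, ← hm, pow_orderOf_eq_one]
  have hb₀2 : b₀ ^ 2 = 1 := by rw [hb₀, ← pow_mul, ← pow_succ, ← hn, pow_orderOf_eq_one]
  have ha₀1 : a₀ ≠ 1 := fun h => by
    have := (Nat.pow_dvd_pow_iff_le_right (by norm_num : 1 < 2)).mp (hm ▸ orderOf_dvd_of_pow_eq_one h)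
    omega
  have hb₀1 : b₀ ≠ 1 := fun h => by
    have := (Nat.pow_dvd_pow_iff_le_right (by norm_num : 1 < 2)).mp (hn ▸ orderOf_dvd_of_pow_eq_one h)
    omega
  have hab₀ : Commute a₀ b₀ := by
    rw [hb₀, show (2 : ℕ) ^ n = 2 * 2 ^ (n - 1) by rw [← pow_succ']; congr 1; omega, pow_mul]
    exact ((hsq b a₀).pow_left _).symm
  have haz : a₀ ≠ z := fun h => hnz a ha (h ▸ pow_mem (mem_zpowers a) _)
  have hbz : b₀ ≠ z := fun h => hnz b hbΦ (h ▸ pow_mem (mem_zpowers b) _)
  -- a product of `a₀` and `b₀` in `⟨z⟩`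
  have hrel : a₀ * b₀ = 1 ∨ a₀ * b₀ = z := by
    by_cases h : a₀ = b₀
    · exact Or.inl (by rw [← h, ← pow_two, ha₀2])
    · exact Or.inr (hE a₀ b₀ z ha₀2 hb₀2 hz2 hab₀ (hzc a₀).symm (hzc b₀).symm ha₀1 hb₀1 hz1 h haz hbz)
  set x := a * b ^ 2 ^ (n - m) with hx
  have hxΦ : x ∉ Φ := by
    rcases Nat.eq_zero_or_pos (n - m) with h | h
    · rw [hx, h, pow_zero, pow_one]; exact habΦ
    · intro hmem
      apply ha
      have hbe : b ^ 2 ^ (n - m) ∈ Φ := by
        rw [show (2 : ℕ) ^ (n - m) = 2 * 2 ^ (n - m - 1) by rw [← pow_succ']; congr 1; omega, pow_mul]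
        exact pow_mem (CfsgLib.PGroup.pow_prime_mem_frattini hG b) _
      simpa [hx] using mul_mem hmem (inv_mem hbe)
  have hxpow : x ^ 2 ^ m ∈ zpowers z := by
    have h := hmul a (b ^ 2 ^ (n - m)) (2 ^ m)
    rw [← pow_mul b, ← pow_add, show n - m + m = n by omega, ← hx, ← ha₀, ← hb₀] at h
    rw [eq_mul_inv_of_mul_eq h]
    refine mul_mem ?_ (inv_mem (pow_mem (hcz _ _) _))
    rcases hrel with h | h <;> rw [h]
    · exact one_mem _
    · exact mem_zpowers z
  have hlow : x ^ 2 ^ m ≠ 1 := fun h => by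
    have h1 := hmin x hxΦ
    have h2 := Nat.le_of_dvd (pow_pos (by norm_num) _) (orderOf_dvd_of_pow_eq_one h)
    rw [hm, pow_succ] at h1
    have := pow_pos (show 0 < 2 by norm_num) m
    omega
  refine hnz x hxΦ ?_
  obtain ⟨i, hi⟩ := mem_zpowers_iff.mp hxpow
  rcases Int.even_or_odd i with ⟨j, rfl⟩ | ⟨j, rfl⟩
  · exact absurd (by rw [← hi, ← two_mul, zpow_mul, zpow_two, ← pow_two, hz2, one_zpow]) hlow
  · rw [zpow_add, zpow_one, zpow_mul, zpow_two, ← pow_two, hz2, one_zpow, one_mul] at hi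
    rw [hi]; exact pow_mem (mem_zpowers x) _

/-- Elementary sections of order 8 exclude three independent commuting involutions. -/
theorem mul_eq_of_rank {Q : Type*} [Group Q] [Finite Q] (hr : Cfsg.PRankLE 2 2 Q) {x y z : Q}
    (hx : x ^ 2 = 1) (hy : y ^ 2 = 1) (hz : z ^ 2 = 1) (hxy : Commute x y) (hxz : Commute x z)
    (hyz : Commute y z) (hx1 : x ≠ 1) (hy1 : y ≠ 1) (hz1 : z ≠ 1) (hne1 : x ≠ y) (hne2 : x ≠ z)
    (hne3 : y ≠ z) : x * y = z := by
  classical
  by_contra hne
  set A := Subgroup.closure ({x, y, z} : Set Q) with hA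
  have hc : ∀ u ∈ ({x, y, z} : Set Q), ∀ v ∈ ({x, y, z} : Set Q), u * v = v * u := by
    rintro u (rfl | rfl | rfl) v (rfl | rfl | rfl)
    exacts [rfl, hxy.eq, hxz.eq, hxy.eq.symm, rfl, hyz.eq, hxz.eq.symm, hyz.eq.symm, rfl]
  have hAc : IsMulCommutative A := Subgroup.isMulCommutative_closure hc
  have hexp : ∀ a ∈ A, a ^ 2 = 1 := by
    intro a ha
    induction ha using Subgroup.closure_induction with
    | mem u hu => rcases hu with rfl | rfl | rfl <;> assumption
    | one => exact one_pow 2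
    | mul u v hu hv hu2 hv2 =>
      rw [(show Commute u v from congrArg Subtype.val (hAc.1.comm ⟨u, hu⟩ ⟨v, hv⟩)).mul_pow, hu2,
        hv2, one_mul]
    | inv u hu hu2 => rw [inv_pow, hu2, inv_one]
  have hcard := hr A hAc hexp
  have hmem : ∀ u ∈ ({1, x, y, z, x * y} : Finset Q), u ∈ A := by
    intro u hu
    have hxA : x ∈ A := Subgroup.subset_closure (by simp)
    have hyA : y ∈ A := Subgroup.subset_closure (by simp)
    simp only [Finset.mem_insert, Finset.mem_singleton] at hu
    rcases hu with rfl | rfl | rfl | rfl | rfl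
    exacts [one_mem _, hxA, hyA, Subgroup.subset_closure (by simp), mul_mem hxA hyA]
  have h5 : ({1, x, y, z, x * y} : Finset Q).card = 5 := by
    have h1 : x * y ≠ 1 := fun h => hne1 (by
      rw [eq_inv_of_mul_eq_one_left h]
      exact inv_eq_of_mul_eq_one_right (by rw [← pow_two, hy]))
    have h2 : x * y ≠ x := fun h => hy1 (mul_eq_left.mp h)
    have h3 : x * y ≠ y := fun h => hx1 (mul_eq_right.mp h)
    rw [Finset.card_insert_of_notMem (by simp [hx1.symm, hy1.symm, hz1.symm, Ne.symm h1]),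
      Finset.card_insert_of_notMem (by simp [hne1, hne2, Ne.symm h2]),
      Finset.card_insert_of_notMem (by simp [hne3, Ne.symm h3]),
      Finset.card_insert_of_notMem (by simp [Ne.symm hne]), Finset.card_singleton]
  have : 5 ≤ Nat.card A := by
    rw [← h5, ← Nat.card_eq_finsetCard]
    exact Nat.card_le_card_of_injective (fun u => (⟨u.1, hmem u.1 u.2⟩ : A))
      fun u v h => Subtype.ext (congrArg Subtype.val h :)
  norm_num at hcard
  omega

/-- A quotient of `G` inherits the rank bound. -/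
theorem prank_quotient {G : Type u} [Group G] [Finite G] (hr : Cfsg.SectionalPRankLE 2 2 G)
    (N : Subgroup G) [N.Normal] : Cfsg.PRankLE 2 2 (G ⧸ N) := by
  intro A hA hexp
  let f : (⊤ : Subgroup G) →* G ⧸ N := (QuotientGroup.mk' N).comp (⊤ : Subgroup G).subtype
  have hf : Function.Surjective f := fun q => by
    obtain ⟨g, rfl⟩ := QuotientGroup.mk'_surjective N q
    exact ⟨⟨g, mem_top g⟩, rfl⟩
  let e := QuotientGroup.quotientKerEquivOfSurjective f hf
  have hmem : ∀ a ∈ A.map e.symm.toMonoidHom, a ^ 2 = 1 := by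
    rintro _ ⟨a, ha, rfl⟩
    rw [← map_pow, hexp a ha, map_one]
  have := hr ⊤ f.ker (A.map e.symm.toMonoidHom) inferInstance hmem
  rwa [card_map_of_injective e.symm.injective] at this

theorem isMetacyclic_of_sectional {G : Type u} [Group G] [Finite G] (hG : IsPGroup 2 G)
    (hr : Cfsg.SectionalPRankLE 2 2 G) : Cfsg.IsMetacyclic G := by
  haveI : Fact (Nat.Prime 2) := ⟨Nat.prime_two⟩
  apply metacyclic_of_radical hG
  set π := QuotientGroup.mk' (radical G) with hπ
  have hπs : Function.Surjective π := QuotientGroup.mk'_surjective _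
  refine metacyclic_of_small (hG.to_quotient _) ?_ (fun g h => ?_)
    fun x y z => mul_eq_of_rank (prank_quotient hr (radical G))
  · have h1 : (frattini G).index ≤ 4 := by
      rw [Subgroup.index_eq_card]
      have := prank_quotient hr (frattini G) ⊤
        ⟨⟨fun a b => Subtype.ext (CfsgLib.PGroup.frattini_quotient_comm hG a.1 b.1)⟩⟩
        (fun a _ => CfsgLib.PGroup.frattini_quotient_pow hG a)
      rw [Subgroup.card_top] at this
      exact this.trans (by norm_num)
    rw [← CfsgLib.PGroup.map_frattini_eq hG π hπs]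
    refine le_trans (Nat.le_of_dvd ?_ (index_map_dvd _ hπs)) h1
    exact Nat.pos_of_ne_zero index_ne_zero_of_finite
  · obtain ⟨g, rfl⟩ := hπs g
    obtain ⟨h, rfl⟩ := hπs h
    have hc : ⁅g, h⁆ ∈ commutator G := by
      rw [commutator_def]; exact commutator_mem_commutator (mem_top g) (mem_top h)
    rw [← map_commutatorElement]
    constructor
    · rw [Subgroup.mem_center_iff]
      intro q
      obtain ⟨k, rfl⟩ := hπs q
      rw [eq_comm, ← commutatorElement_eq_one_iff_mul_comm, ← map_commutatorElement]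
      exact (QuotientGroup.eq_one_iff _).mpr
        (mem_sup_left (commutator_mem_commutator hc (mem_top k)))
    · rw [← map_pow]
      exact (QuotientGroup.eq_one_iff _).mpr (mem_sup_right (Subgroup.subset_closure ⟨_, hc, rfl⟩))

end CfsgLib.TwoGroup.MetacyclicSectional
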