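import Cfsg.Agent.TwoGroup.MaximalClass
import Cfsg.Agent.TwoGroup.NormalRankOne
import Cfsg.Agent.PGroup.Frattini

/-! A 2-group of sectional rank two with a non-abelian subgroup of order eight has maximal class. -/

set_option autoImplicit false

namespace CfsgLib.TwoGroup

universe u

variable {G : Type u} [Group G]

theorem sectional_two_subgroup [Finite G] (hr : Cfsg.SectionalPRankLE 2 2 G) (M : Subgroup G) :
    Cfsg.SectionalPRankLE 2 2 M := by
  intro H N hN A hA hA2
  let e : H ≃* H.map M.subtype := H.equivMapOfInjective M.subtype M.subtype_injective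
  have hN' : (N.map e.toMonoidHom).Normal := hN.map _ e.surjective
  let f : H ⧸ N ≃* H.map M.subtype ⧸ N.map e.toMonoidHom := QuotientGroup.congr N _ e rfl
  have := hr (H.map M.subtype) (N.map e.toMonoidHom) (A.map f.toMonoidHom)
    (isMulCommutative_iff.2 fun a b => by
      obtain ⟨a', ha', ea⟩ := a.2
      obtain ⟨b', hb', eb⟩ := b.2
      apply Subtype.ext
      simp only [Subgroup.coe_mul]
      rw [← ea, ← eb, ← map_mul, ← map_mul]
      exact congrArg _ (congrArg Subtype.val (isMulCommutative_iff.1 hA ⟨a', ha'⟩ ⟨b', hb'⟩)))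
    (by rintro _ ⟨a, ha, rfl⟩; rw [← map_pow, hA2 a ha, map_one])
  rwa [Subgroup.card_map_of_injective (f := f.toMonoidHom) f.injective] at this

/-- An elementary abelian section of order above four contradicts sectional rank two. -/
theorem card_quotient_le_four (hr : Cfsg.SectionalPRankLE 2 2 G) (K : Subgroup G) (N : Subgroup K)
    [N.Normal] (hsq : ∀ k : K, k * k ∈ N) : Nat.card (K ⧸ N) ≤ 4 := by
  have h1 : ∀ q : K ⧸ N, q * q = 1 := fun q => by
    obtain ⟨k, rfl⟩ := QuotientGroup.mk_surjective q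
    rw [← QuotientGroup.mk_mul, QuotientGroup.eq_one_iff]; exact hsq k
  have h2 : ∀ a b : K ⧸ N, a * b = b * a := fun a b => by
    have ea := inv_eq_of_mul_eq_one_right (h1 a)
    have eb := inv_eq_of_mul_eq_one_right (h1 b)
    have eab := inv_eq_of_mul_eq_one_right (h1 (a * b))
    rw [mul_inv_rev, ea, eb] at eab
    exact eab.symm
  have := hr K N ⊤ (isMulCommutative_iff.2 fun a b => Subtype.ext (h2 _ _))
    (fun a _ => by rw [pow_two]; exact h1 a)
  rwa [Subgroup.card_top] at this

theorem card_center_of_card_eight {H : Type*} [Group H] (hH : Nat.card H = 8)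
    (hnc : ¬ IsMulCommutative H) :
    Nat.card (Subgroup.center H) = 2 ∧ ∀ h : H, h * h ∈ Subgroup.center H := by
  have hfin : Finite H := Nat.finite_of_card_ne_zero (by omega)
  obtain ⟨n, r, s, hn, hr, ⟨F⟩⟩ := (isMaxClassType_of_card_eight hH hnc).exists_maxType_frame
  have h8 := F.card_eq
  rw [hH, ← pow_succ', show (8 : ℕ) = 2 ^ 3 by norm_num] at h8
  obtain rfl : n = 2 := by have := Nat.pow_right_injective (le_refl 2) h8; omega
  refine ⟨F.card_center_of_maxType le_rfl hr, fun h => ?_⟩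
  obtain rfl : r = -1 := by rcases hr with h' | ⟨h', -⟩ <;> [exact h'; omega]
  have h2 : ∀ j : ZMod (2 ^ 2), (-1) * (2 * j) = 2 * j := by decide
  obtain ⟨i, rfl | rfl⟩ := F.cover h
  · rw [F.e_mul_e, ← two_mul]; exact F.e_mem_center.2 (h2 i)
  · rw [F.ey_mul_ey, show i + -1 * i + s = s by ring]
    exact F.e_mem_center.2 F.r_mul_s

theorem centralizer_le_of_sectional [Finite G] (h2 : IsPGroup 2 G)
    (hr : Cfsg.SectionalPRankLE 2 2 G) (H : Subgroup G) (hH : Nat.card H = 8)
    (hnc : ¬ IsMulCommutative H) : Subgroup.centralizer (H : Set G) ≤ H := by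
  by_contra hle
  obtain ⟨c₀, hc₀, hc₀H⟩ := SetLike.not_le_iff_exists.1 hle
  obtain ⟨c, hc, hcH, hcc⟩ : ∃ c ∈ Subgroup.centralizer (H : Set G), c ∉ H ∧ c * c ∈ H := by
    obtain ⟨k, hk⟩ := h2 c₀
    induction k generalizing c₀ with
    | zero => rw [pow_zero, pow_one] at hk; exact absurd (hk ▸ one_mem H) hc₀H
    | succ k ih =>
      by_cases h : c₀ * c₀ ∈ H
      · exact ⟨c₀, hc₀, hc₀H, h⟩
      · exact ih _ (mul_mem hc₀ hc₀) h (by rw [← pow_two, ← pow_mul, ← pow_succ']; exact hk)
  obtain ⟨hZc, hsq⟩ := card_center_of_card_eight hH hnc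
  set Z := (Subgroup.center H).map H.subtype with hZ
  have hcomm : ∀ h ∈ H, h * c = c * h := fun h hh => Subgroup.mem_centralizer_iff.1 hc h hh
  have hccZ : c * c ∈ Z := ⟨⟨c * c, hcc⟩, Subgroup.mem_center_iff.2 fun h => Subtype.ext
    (show (h : G) * (c * c) = c * c * h by
      rw [← mul_assoc, hcomm h h.2, mul_assoc, hcomm h h.2, ← mul_assoc]), rfl⟩
  set K := H ⊔ Subgroup.zpowers c
  have hHK : H ≤ K := le_sup_left
  have hZK : ∀ z ∈ Z, ∀ k ∈ K, k * z = z * k := by
    rintro _ ⟨z, hz, rfl⟩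
    suffices K ≤ Subgroup.centralizer ({(z : G)} : Set G) from fun k hk =>
      Subgroup.mem_centralizer_singleton_iff.1 (this hk)
    refine sup_le (fun h hh => Subgroup.mem_centralizer_singleton_iff.2 ?_)
      (Subgroup.zpowers_le.2 (Subgroup.mem_centralizer_singleton_iff.2 (hcomm z z.2).symm))
    exact congrArg Subtype.val (Subgroup.mem_center_iff.1 hz ⟨h, hh⟩)
  have hN : (Z.subgroupOf K).Normal := ⟨fun z hz k => by
    rw [Subgroup.mem_subgroupOf] at hz ⊢
    rw [Subgroup.coe_mul, Subgroup.coe_mul, hZK _ hz k k.2, Subgroup.coe_inv, mul_inv_cancel_right]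
    exact hz⟩
  have hel : ∀ k ∈ K, ∃ h ∈ H, k = h ∨ k = h * c := by
    intro k hk
    let L : Subgroup G :=
      { carrier := {k | ∃ h ∈ H, k = h ∨ k = h * c}
        one_mem' := ⟨1, one_mem H, Or.inl rfl⟩
        mul_mem' := by
          rintro a b ⟨x, hx, ha⟩ ⟨y, hy, hb⟩
          rcases ha with rfl | rfl <;> rcases hb with rfl | rfl
          · exact ⟨_, mul_mem hx hy, Or.inl rfl⟩
          · exact ⟨_, mul_mem hx hy, Or.inr (mul_assoc _ _ _).symm⟩
          · exact ⟨_, mul_mem hx hy, Or.inr (by rw [mul_assoc, ← hcomm _ hy, mul_assoc])⟩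
          · refine ⟨_, mul_mem (mul_mem hx hy) hcc, Or.inl ?_⟩
            rw [mul_assoc x c, ← mul_assoc c y, ← hcomm _ hy]; group
        inv_mem' := by
          rintro a ⟨x, hx, rfl | rfl⟩
          · exact ⟨_, inv_mem hx, Or.inl rfl⟩
          · refine ⟨_, mul_mem (inv_mem hx) (inv_mem hcc), Or.inr ?_⟩
            rw [hcomm x hx]; group }
    exact (sup_le (c := L) (fun h hh => ⟨h, hh, Or.inl rfl⟩)
      (Subgroup.zpowers_le.2 ⟨1, one_mem H, Or.inr (one_mul c).symm⟩)) hk
  have hsqK : ∀ k : K, k * k ∈ Z.subgroupOf K := by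
    intro k
    rw [Subgroup.mem_subgroupOf, Subgroup.coe_mul]
    obtain ⟨h, hh, e⟩ := hel k k.2
    have hhh : h * h ∈ Z := ⟨⟨h, hh⟩ * ⟨h, hh⟩, hsq ⟨h, hh⟩, rfl⟩
    rcases e with e | e <;> rw [e]
    · exact hhh
    · have : h * c * (h * c) = h * h * (c * c) := by
        rw [mul_assoc h c, ← mul_assoc c h, ← hcomm h hh]; group
      rw [this]
      exact mul_mem hhh hccZ
  have h4 := card_quotient_le_four hr K (Z.subgroupOf K) hsqK
  have hle' : Z ≤ K := (Subgroup.map_subtype_le _).trans hHK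
  have hcard := (Z.subgroupOf K).card_mul_index
  rw [Nat.card_congr (Subgroup.subgroupOfEquivOfLe hle').toEquiv,
    Subgroup.card_map_of_injective H.subtype_injective, hZc, Subgroup.index_eq_card] at hcard
  have hHK' : Nat.card H < Nat.card K := by
    refine lt_of_le_of_ne (Subgroup.card_le_of_le hHK) fun he => hcH ?_
    rw [Subgroup.eq_of_le_of_card_ge hHK he.ge]
    exact Subgroup.mem_sup_right (Subgroup.mem_zpowers c)
  omega

theorem sq_ne_maxType {n : ℕ} (hn : 2 ≤ n) {r : ZMod (2 ^ n)} (hr : MaxType n r)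
    (k : ZMod (2 ^ n)) : k * k ≠ r := by
  rcases hr with rfl | ⟨h3, rfl⟩
  · exact (sq_ne_neg_one_type hn k).1
  · exact (sq_ne_neg_one_type hn k).2 h3

theorem even_iff_mem_commutator {n : ℕ} {r s : ZMod (2 ^ n)} {M : Type*} [Group M]
    (F : Frame M (2 ^ n) r s) (hr : MaxType n r) {i : ZMod (2 ^ n)} :
    F.e i ∈ commutator M ↔ ∃ t, i = 2 * t := by
  rw [F.commutator_eq_of_maxType hr, F.mem_zpowers_e]
  exact ⟨fun ⟨c, hc⟩ => ⟨c, (F.e_inj.1 hc).trans (mul_comm _ _)⟩,
    fun ⟨t, ht⟩ => ⟨t, by rw [ht, mul_comm]⟩⟩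

/-- A 2-group of sectional rank two with a non-abelian subgroup of order eight has maximal class. -/
theorem isMaxClassType_of_sectional : ∀ {G : Type u} [Group G] [Finite G], IsPGroup 2 G →
    Cfsg.SectionalPRankLE 2 2 G → ∀ H : Subgroup G, Nat.card H = 8 → ¬ IsMulCommutative H →
    IsMaxClassType G := by
  intro G _ _ h2 hr H hH hnc
  induction hcard : Nat.card G using Nat.strong_induction_on generalizing G with
  | _ N ih =>
  have : Fact (Nat.Prime 2) := ⟨Nat.prime_two⟩
  by_cases htop : H = ⊤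
  · subst htop
    rw [Subgroup.card_top] at hH
    exact isMaxClassType_of_card_eight hH fun hc => hnc inferInstance
  obtain ⟨M, hM, hHM⟩ := (eq_top_or_exists_le_coatom H).resolve_left htop
  have hidx : M.index = 2 := CfsgLib.PGroup.index_of_coatom h2 hM
  have hMn : M.Normal := Subgroup.normal_of_index_eq_two hidx
  have hGM : Nat.card G = Nat.card M * 2 := by rw [← hidx, M.card_mul_index]
  have hMmax : IsMaxClassType M := by
    refine ih _ ?_ (h2.to_subgroup M) (sectional_two_subgroup hr M) (H.subgroupOf M) ?_ ?_ rfl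
    · have := Nat.card_pos (α := M); omega
    · rw [Nat.card_congr (Subgroup.subgroupOfEquivOfLe hHM).toEquiv, hH]
    · refine fun hc => hnc (isMulCommutative_iff.2 fun a b => Subtype.ext ?_)
      exact congrArg (fun x : H.subgroupOf M => ((x : M) : G))
        (isMulCommutative_iff.1 hc ⟨⟨a, hHM a.2⟩, a.2⟩ ⟨⟨b, hHM b.2⟩, b.2⟩)
  obtain ⟨n, r, s, hn, hrt, ⟨F⟩⟩ := hMmax.exists_maxType_frame
  have hMc : Nat.card M = 2 ^ (n + 1) := by rw [F.card_eq, pow_succ']
  set T := (commutator M).map M.subtype with hT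
  have hTn : T.Normal := ⟨fun x hx g => by
    obtain ⟨y, hy, rfl⟩ := hx
    have hc : (commutator M).Characteristic := inferInstance
    have := Subgroup.characteristic_iff_map_eq.1 hc (MulAut.conjNormal g)
    exact ⟨MulAut.conjNormal g y, this ▸ Subgroup.mem_map_of_mem _ hy, by simp⟩⟩
  have hTi : T.index = 8 := by
    rw [hT, Subgroup.index_map_subtype, hidx, F.index_commutator_of_maxType (by omega) hrt]
  by_cases hab : ∀ a b : G ⧸ T, a * b = b * a
  swap
  · refine (isMaxClassType_of_index_commutator h2 ?_).resolve_left ?_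
    · have hle : T ≤ commutator G := by
        rw [hT, commutator_def, commutator_def, Subgroup.map_commutator]
        exact Subgroup.commutator_mono le_top le_top
      have hne : T ≠ commutator G := by
        intro he
        refine hab fun a b => ?_
        have : IsMulCommutative (G ⧸ T) :=
          (Subgroup.Normal.quotient_commutative_iff_commutator_le).2 he.ge
        exact isMulCommutative_iff.1 this a b
      have hd := Subgroup.index_dvd_of_le hle
      have hlt := Subgroup.index_strictAnti (lt_of_le_of_ne hle hne)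
      rw [hTi] at hd hlt
      have h4 := four_le_index_commutator h2 fun hc => hnc
        (isMulCommutative_iff.2 fun a b => Subtype.ext (hc.is_comm.comm _ _))
      obtain ⟨k, hk, hk'⟩ := (Nat.dvd_prime_pow Nat.prime_two).1
        (show (commutator G).index ∣ 2 ^ 3 by norm_num; exact hd)
      interval_cases k <;> omega
    · rw [hGM, hMc]
      have : 2 ^ 3 ≤ 2 ^ (n + 1) := Nat.pow_le_pow_right two_pos (by omega)
      omega
  -- now `G ⧸ T` is abelian; it cannot have exponent two
  obtain ⟨g, hg⟩ : ∃ g : G, g * g ∉ T := by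
    by_contra hall
    rw [not_exists] at hall
    have h4 : Nat.card ((⊤ : Subgroup G) ⧸ T.subgroupOf ⊤) ≤ 4 :=
      card_quotient_le_four hr ⊤ _ fun k => not_not.1 (hall k)
    rw [← Subgroup.index_eq_card] at h4
    have : (T.subgroupOf ⊤).index = T.index := Subgroup.relIndex_top_right T
    omega
  have hggM : g * g ∈ M := (Subgroup.mul_mem_iff_of_index_two hidx).2 Iff.rfl
  have hgT : ∀ x : G, g * x * g⁻¹ * x⁻¹ ∈ T := fun x => by
    rw [← QuotientGroup.eq_one_iff]
    simp only [QuotientGroup.mk_mul, QuotientGroup.mk_inv]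
    rw [hab (g : G ⧸ T), mul_inv_cancel_right, mul_inv_cancel]
  obtain ⟨i, hi | hi⟩ := F.cover ⟨g * g, hggM⟩
  swap
  · -- the square would invert the cyclic part
    exfalso
    obtain ⟨t₀, ht₀, et₀⟩ := hgT (F.e 1 : M)
    rw [F.commutator_eq_of_maxType hrt] at ht₀
    obtain ⟨c, rfl⟩ := F.mem_zpowers_e.1 ht₀
    set k := c * 2 + 1 with hk
    have hge : ∀ j, g * (F.e j : M) * g⁻¹ = (F.e (k * j) : M) := by
      intro j
      obtain ⟨a, rfl⟩ := ZMod.intCast_surjective j
      have h1 : g * (F.e 1 : M) * g⁻¹ = (F.e k : M) := by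
        rw [hk, F.map_add, Subgroup.coe_mul]
        rw [show ((F.e (c * 2) : M) : G) = g * (F.e 1 : M) * g⁻¹ * ((F.e 1 : M) : G)⁻¹ from et₀]
        group
      rw [← mul_one (a : ZMod (2 ^ n)), F.map_zsmul, SubgroupClass.coe_zpow, ← conj_zpow, h1,
        ← SubgroupClass.coe_zpow, ← F.map_zsmul, mul_one, mul_comm]
    refine sq_ne_maxType hn hrt k ?_
    have e1 : g * g * (F.e 1 : M) * (g * g)⁻¹ = (F.e (k * k) : M) := by
      calc g * g * (F.e 1 : M) * (g * g)⁻¹ = g * (g * (F.e 1 : M) * g⁻¹) * g⁻¹ := by group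
        _ = _ := by rw [hge, hge, mul_one]
    have e2 : (⟨g * g, hggM⟩ : M) * F.e 1 * (⟨g * g, hggM⟩ : M)⁻¹ = F.e (k * k) := Subtype.ext e1
    rw [hi, F.conj_e, F.e_inj, mul_one] at e2
    exact e2.symm
  obtain ⟨t, rfl | rfl⟩ := even_or_odd' i
  · exact absurd ⟨_, (even_iff_mem_commutator F hrt).2 ⟨t, rfl⟩, (congrArg Subtype.val hi).symm⟩ hg
  -- so `g` generates a cyclic subgroup of index two
  have hoi : orderOf (g ^ 2) = 2 ^ n := by
    rw [pow_two, show g * g = ((⟨g * g, hggM⟩ : M) : G) from rfl, hi, Subgroup.orderOf_coe]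
    refine orderOf_eq_prime_pow ?_ ?_ |>.trans (congrArg (2 ^ ·) (show n - 1 + 1 = n by omega))
    · rw [← F.map_nsmul, F.e_eq_one, Nat.cast_pow, Nat.cast_ofNat,
        show (2 : ZMod (2 ^ n)) ^ (n - 1) * (2 * t + 1) = half n * (2 * t + 1) from rfl,
        half_mul_odd (by omega)]
      exact half_ne_zero (by omega)
    · rw [← F.map_nsmul, F.e_eq_one, Nat.cast_pow, Nat.cast_ofNat, two_pow_eq_zero n (by omega),
        zero_mul]
  have hog : orderOf g = 2 ^ (n + 1) := by
    refine orderOf_eq_prime_pow ?_ ?_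
    · intro h
      have : (g ^ 2) ^ 2 ^ (n - 1) = 1 := by
        rw [← pow_mul, ← pow_succ', show n - 1 + 1 = n by omega]; exact h
      have := Nat.le_of_dvd (by positivity) (hoi ▸ orderOf_dvd_of_pow_eq_one this)
      exact absurd this (not_le.2 (Nat.pow_lt_pow_right one_lt_two (by omega)))
    · rw [pow_succ', pow_mul, ← hoi, pow_orderOf_eq_one]
  have hG : Nat.card G = 2 ^ (n + 1 + 1) := by rw [hGM, hMc, ← pow_succ]
  have hnG : ¬ IsMulCommutative G := fun hc => hnc
    (isMulCommutative_iff.2 fun a b => Subtype.ext (hc.is_comm.comm _ _))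
  obtain ⟨-, r', s', F', hrot, ⟨hr', hs'⟩ | ⟨hr', hs'⟩ | ⟨h3, hr', hs'⟩ | ⟨h3, hr', -⟩⟩ :=
    classify_cyclic_index_two g hog hG hnG
  · exact ⟨n + 1, by omega, Or.inl ⟨F'.congr hr' hs'⟩⟩
  · exact ⟨n + 1, by omega, Or.inr (Or.inl ⟨F'.congr hr' hs'⟩)⟩
  · exact ⟨n + 1, by omega, Or.inr (Or.inr ⟨h3, ⟨F'.congr hr' hs'⟩⟩)⟩
  · exfalso
    obtain ⟨j, hj⟩ := F'.mem_rot.1 (hrot ▸ Subgroup.mem_zpowers g)
    have hcen : g * g ∈ Subgroup.center G := by
      rw [hj, F'.e_mul_e, ← two_mul]
      refine F'.e_mem_center.2 ?_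
      rw [hr']
      linear_combination j * two_mul_half (n := n + 1) (by omega)
    have : (⟨g * g, hggM⟩ : M) ∈ Subgroup.center M := Subgroup.mem_center_iff.2 fun m =>
      Subtype.ext (Subgroup.mem_center_iff.1 hcen m)
    rw [hi, F.e_mem_center] at this
    have h2i := hrt.two_mul_eq_zero this
    apply half_ne_zero (n := n) (by omega)
    rcases (two_mul_eq_zero_iff (n := n) (by omega)).1 h2i with h0 | h0
    · linear_combination half n * h0 - half_mul_odd (n := n) (by omega) t
    · have hh : half n * half n = 0 := by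
        rw [half, ← pow_add]; exact two_pow_eq_zero n (by omega)
      linear_combination half n * h0 - half_mul_odd (n := n) (by omega) t + hh

end CfsgLib.TwoGroup
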